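import Mathlib.Data.Nat.Bitwise
import Mathlib.Tactic

/-!
# S5917 (`L₃(4)` in `E₈(2)`), type A: the exhaustive search over the tensors (helper865), the pure part

A tensor `T ∈ F_2^27` is a mask `m < 2^27`; the element `d` is a mask `dm < 32`.
`pty` : parity of the number of the bits; `eq1 m e` : the value of the quadratic equation `e` (list of the pairs,
the pair `{a, b}` is the mask `2^a + 2^b`); `dfs` : the search; `search` : its result.
-/

set_option autoImplicit false
set_option maxRecDepth 100000

namespace Cfsg.Agent.H865.L34

/-- sum modulo two over a list -/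
def xf {α : Type} (l : List α) (f : α → Bool) : Bool := l.foldr (fun a v => xor (f a) v) false

theorem xf_nil {α : Type} (f : α → Bool) : xf [] f = false := rfl

theorem xf_cons {α : Type} (a : α) (l : List α) (f : α → Bool) : xf (a :: l) f = xor (f a) (xf l f) := rfl

theorem xf_append {α : Type} (l l' : List α) (f : α → Bool) : xf (l ++ l') f = xor (xf l f) (xf l' f) := by
  induction l with
  | nil => rw [List.nil_append, xf_nil, Bool.false_xor]
  | cons a l ih => rw [List.cons_append, xf_cons, xf_cons, ih, Bool.xor_assoc]

theorem xf_xor {α : Type} (l : List α) (f g : α → Bool) : xf l (fun a => xor (f a) (g a)) = xor (xf l f) (xf l g) := by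
  induction l with
  | nil => rfl
  | cons a l ih =>
    rw [xf_cons, xf_cons, xf_cons, ih]
    cases f a <;> cases g a <;> cases xf l f <;> cases xf l g <;> rfl

theorem xf_congr {α : Type} {l : List α} {f g : α → Bool} (h : ∀ a ∈ l, f a = g a) : xf l f = xf l g := by
  induction l with
  | nil => rfl
  | cons a l ih =>
    rw [xf_cons, xf_cons, h a List.mem_cons_self, ih fun b hb => h b (List.mem_cons_of_mem _ hb)]

theorem xf_false {α : Type} {l : List α} {f : α → Bool} (h : ∀ a ∈ l, f a = false) : xf l f = false := by
  induction l with
  | nil => rfl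
  | cons a l ih => rw [xf_cons, h a List.mem_cons_self, ih fun b hb => h b (List.mem_cons_of_mem _ hb)]; rfl

theorem xf_and {α : Type} (c : Bool) (l : List α) (f : α → Bool) : xf l (fun a => c && f a) = (c && xf l f) := by
  induction l with
  | nil => cases c <;> rfl
  | cons a l ih =>
    rw [xf_cons, xf_cons, ih]
    cases c <;> cases f a <;> cases xf l f <;> rfl

theorem xf_filter {α : Type} (l : List α) (p f : α → Bool) : xf l (fun a => f a && p a) = xf (l.filter p) f := by
  induction l with
  | nil => rfl
  | cons a l ih =>
    rw [xf_cons, ih, List.filter_cons]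
    cases h : p a
    · rw [Bool.and_false, Bool.false_xor]; simp
    · rw [Bool.and_true]; simp [xf_cons]

theorem xf_map {α β : Type} (l : List α) (g : α → β) (f : β → Bool) : xf (l.map g) f = xf l fun a => f (g a) := by
  induction l with
  | nil => rfl
  | cons a l ih => rw [List.map_cons, xf_cons, xf_cons, ih]

theorem xf_comm {α β : Type} (l : List α) (l' : List β) (f : α → β → Bool) :
    xf l (fun a => xf l' fun b => f a b) = xf l' (fun b => xf l fun a => f a b) := by
  induction l with
  | nil => rw [xf_nil]; exact (xf_false fun _ _ => rfl).symm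
  | cons a l ih =>
    rw [xf_cons, ih, ← xf_xor]
    rfl

theorem xf_eq_of_mem {α : Type} [DecidableEq α] {l : List α} (hl : l.Nodup) {a : α} (ha : a ∈ l) (f : α → Bool) :
    xf l (fun b => f b && decide (b = a)) = f a := by
  induction l with
  | nil => simp at ha
  | cons b l ih =>
    rw [xf_cons]
    rw [List.nodup_cons] at hl
    by_cases h : b = a
    · subst h
      rw [xf_false, Bool.xor_false, decide_eq_true rfl, Bool.and_true]
      intro c hc
      rw [decide_eq_false (fun h3 : c = b => hl.1 (h3 ▸ hc)), Bool.and_false]
    · rw [decide_eq_false h, Bool.and_false, Bool.false_xor]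
      exact ih hl.2 (by simpa [Ne.symm h] using ha)

/-- parity of the number of bits (below `2^32`) -/
def pty (m : ℕ) : Bool :=
  (fun a => (fun b => (fun c => (fun d => (fun e => Nat.beq (Nat.land e 1) 1) (Nat.xor d (Nat.shiftRight d 1)))
    (Nat.xor c (Nat.shiftRight c 2))) (Nat.xor b (Nat.shiftRight b 4))) (Nat.xor a (Nat.shiftRight a 8)))
    (Nat.xor m (Nat.shiftRight m 16))

theorem xf_half (k m : ℕ) : xf (List.range (k + k)) m.testBit = xf (List.range k) (Nat.xor m (Nat.shiftRight m k)).testBit := by
  rw [List.range_add, xf_append, xf_map, ← xf_xor]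
  refine xf_congr fun i _ => ?_
  show _ = (m ^^^ (m >>> k)).testBit i
  rw [Nat.testBit_xor, Nat.testBit_shiftRight]

theorem pty_eq (m : ℕ) : pty m = xf (List.range 32) m.testBit := by
  have h0 : ∀ e : ℕ, Nat.beq (Nat.land e 1) 1 = xf (List.range 1) e.testBit := by
    intro e
    show _ = xor (e.testBit 0) false
    rw [Bool.xor_false, Nat.testBit_zero, Bool.eq_iff_iff, Nat.beq_eq, decide_eq_true_eq, ← Nat.and_one_is_mod]
    rfl
  show Nat.beq (Nat.land _ 1) 1 = _
  rw [h0, ← xf_half 1, ← xf_half 2, ← xf_half 4, ← xf_half 8, ← xf_half 16]

theorem pty_land (m r : ℕ) : pty (Nat.land m r) = xf (List.range 32) fun k => m.testBit k && r.testBit k := by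
  rw [pty_eq]
  refine xf_congr fun k _ => ?_
  show (m &&& r).testBit k = _
  rw [Nat.testBit_and]

theorem pty_land_xor (m a b : ℕ) : pty (Nat.land m (a ^^^ b)) = xor (pty (Nat.land m a)) (pty (Nat.land m b)) := by
  rw [pty_land, pty_land, pty_land, ← xf_xor]
  refine xf_congr fun k _ => ?_
  rw [Nat.testBit_xor]
  cases m.testBit k <;> cases a.testBit k <;> cases b.testBit k <;> rfl

theorem pty_land_27 {m : ℕ} (hm : m < 2 ^ 27) (r : ℕ) :
    pty (Nat.land m r) = xf (List.range 27) fun k => m.testBit k && r.testBit k := by
  rw [pty_land, show List.range 32 = List.range 27 ++ [27, 28, 29, 30, 31] from rfl, xf_append]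
  rw [xf_false (l := [27, 28, 29, 30, 31]), Bool.xor_false]
  intro k hk
  have hk' : 27 ≤ k := by
    simp only [List.mem_cons, List.not_mem_nil, or_false] at hk
    omega
  rw [Nat.testBit_eq_false_of_lt (lt_of_lt_of_le hm (Nat.pow_le_pow_right (by norm_num) hk')), Bool.false_and]

theorem land_mod {m r n : ℕ} (h : r < 2 ^ n) : Nat.land (m % 2 ^ n) r = Nat.land m r := by
  apply Nat.eq_of_testBit_eq
  intro i
  show ((m % 2 ^ n) &&& r).testBit i = (m &&& r).testBit i
  rw [Nat.testBit_and, Nat.testBit_and, Nat.testBit_mod_two_pow]
  by_cases hi : i < n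
  · rw [decide_eq_true hi, Bool.true_and]
  · rw [Nat.testBit_eq_false_of_lt (lt_of_lt_of_le h (Nat.pow_le_pow_right (by norm_num) (Nat.le_of_not_lt hi)))]
    rw [Bool.and_false, Bool.and_false]

theorem mod_succ (m n : ℕ) : m % 2 ^ (n + 1) = m % 2 ^ n + 2 ^ n * (m.testBit n).toNat := by
  rw [pow_succ, Nat.mod_mul, Nat.testBit_eq_decide_div_mod_eq]
  have h := Nat.mod_two_eq_zero_or_one (m / 2 ^ n)
  rcases h with h | h <;> rw [h] <;> simp

/-- the value of a quadratic equation -/
def eq1 (m : ℕ) (e : List ℕ) : Bool := xf e fun w => Nat.beq (Nat.land m w) w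

theorem beq_pair (m a b : ℕ) : Nat.beq (Nat.land m (2 ^ a ||| 2 ^ b)) (2 ^ a ||| 2 ^ b) = (m.testBit a && m.testBit b) := by
  rw [Bool.eq_iff_iff, Bool.and_eq_true]
  constructor
  · intro h
    replace h := Nat.eq_of_beq_eq_true h
    have h1 : ∀ i, (m &&& (2 ^ a ||| 2 ^ b)).testBit i = (2 ^ a ||| 2 ^ b).testBit i := fun i => by
      rw [show m &&& (2 ^ a ||| 2 ^ b) = 2 ^ a ||| 2 ^ b from h]
    have h2 := h1 a
    have h3 := h1 b
    simp only [Nat.testBit_and, Nat.testBit_or, Nat.testBit_two_pow_self, Bool.true_or, Bool.or_true,
      Bool.and_true] at h2 h3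
    exact ⟨h2, h3⟩
  · rintro ⟨h2, h3⟩
    rw [Nat.beq_eq]
    show m &&& (2 ^ a ||| 2 ^ b) = 2 ^ a ||| 2 ^ b
    apply Nat.eq_of_testBit_eq
    intro i
    rw [Nat.testBit_and, Nat.testBit_or, Nat.testBit_two_pow, Nat.testBit_two_pow]
    by_cases ha : a = i
    · subst ha; rw [h2]; simp
    · by_cases hb : b = i
      · subst hb; rw [h3]; simp
      · simp [ha, hb]

theorem eq1_mod {m n : ℕ} {e : List ℕ} (h : ∀ w ∈ e, w < 2 ^ n) : eq1 (m % 2 ^ n) e = eq1 m e :=
  xf_congr fun w hw => by rw [land_mod (h w hw)]

/-- a level of the search: the rows, the equations -/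
abbrev Lev := List ℕ × List (List ℕ)

/-- the test of a level -/
def okl (a : Lev) (m : ℕ) : Bool := (a.1.all fun r => !pty (Nat.land m r)) && a.2.all fun e => !eq1 m e

/-- **the search** -/
def dfs (sol : List ℕ) : List Lev → ℕ → ℕ → Bool
  | [], _, m => sol.any fun s => Nat.beq s m
  | a :: L, p, m => (!okl a m || dfs sol L (Nat.mul 2 p) m) &&
      (!okl a (Nat.add m p) || dfs sol L (Nat.mul 2 p) (Nat.add m p))

/-- the bounds of the levels -/
def bnd : List Lev → ℕ → Bool
  | [], _ => true
  | a :: L, p => ((a.1.all fun r => Nat.blt r (Nat.mul 2 p)) && a.2.all fun e => e.all fun w => Nat.blt w (Nat.mul 2 p)) &&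
      bnd L (Nat.mul 2 p)

theorem dfs_sound {M : ℕ} {sol : List ℕ} : ∀ (L : List Lev) (n m : ℕ), dfs sol L (2 ^ n) m = true → M % 2 ^ n = m →
    bnd L (2 ^ n) = true → (∀ a ∈ L, (∀ r ∈ a.1, pty (Nat.land M r) = false) ∧ ∀ e ∈ a.2, eq1 M e = false) →
    M % 2 ^ (n + L.length) ∈ sol
  | [], n, m, h, hm, _, _ => by
    obtain ⟨s, hs, h1⟩ := List.any_eq_true.1 h
    rw [List.length_nil, Nat.add_zero, hm, ← Nat.eq_of_beq_eq_true h1]
    exact hs
  | a :: L, n, m, h, hm, hb, hg => by
    have e2 : Nat.mul 2 (2 ^ n) = 2 ^ (n + 1) := by show 2 * 2 ^ n = _; rw [pow_succ, mul_comm]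
    have hb1 := Bool.and_eq_true_iff.1 hb
    rw [e2] at hb1
    have hb2 := Bool.and_eq_true_iff.1 hb1.1
    have hok : okl a (M % 2 ^ (n + 1)) = true := by
      unfold okl
      rw [Bool.and_eq_true_iff]
      constructor
      · rw [List.all_eq_true]
        intro r hr
        rw [land_mod, (hg a List.mem_cons_self).1 r hr]
        · rfl
        · exact Nat.blt_eq.mp (List.all_eq_true.1 hb2.1 r hr)
      · rw [List.all_eq_true]
        intro e he
        rw [eq1_mod, (hg a List.mem_cons_self).2 e he]
        · rfl
        · intro w hw
          exact Nat.blt_eq.mp (List.all_eq_true.1 (List.all_eq_true.1 hb2.2 e he) w hw)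
    have h1 := Bool.and_eq_true_iff.1 h
    rw [e2] at h1
    have hM := mod_succ M n
    have key : dfs sol L (2 ^ (n + 1)) (M % 2 ^ (n + 1)) = true := by
      cases hbit : M.testBit n
      · rw [hbit, Bool.toNat_false, mul_zero, add_zero, hm] at hM
        have h2 := h1.1
        rw [← hM, hok] at h2
        simpa using h2
      · rw [hbit, Bool.toNat_true, mul_one, hm] at hM
        have h2 := h1.2
        have e3 : Nat.add m (2 ^ n) = M % 2 ^ (n + 1) := hM.symm
        rw [e3, hok] at h2
        simpa using h2
    have h3 := dfs_sound L (n + 1) (M % 2 ^ (n + 1)) key rfl hb1.2 fun b hb => hg b (List.mem_cons_of_mem _ hb)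
    rw [List.length_cons, show n + (L.length + 1) = n + 1 + L.length by ring]
    exact h3

/-- the combination `c` of the rows -/
def comb : List ℕ → ℕ → ℕ
  | [], _ => 0
  | r :: R, c => Nat.xor (cond (Nat.beq (Nat.land c 1) 1) r 0) (comb R (Nat.shiftRight c 1))

theorem pty_comb {M : ℕ} : ∀ (R : List ℕ) (c : ℕ), (∀ r ∈ R, pty (Nat.land M r) = false) →
    pty (Nat.land M (comb R c)) = false
  | [], _, _ => by
    show pty (Nat.land M 0) = false
    rw [pty_land]
    exact xf_false fun k _ => by rw [Nat.zero_testBit, Bool.and_false]
  | r :: R, c, h => by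
    show pty (Nat.land M (_ ^^^ _)) = false
    rw [pty_land_xor, pty_comb R _ fun s hs => h s (List.mem_cons_of_mem _ hs), Bool.xor_false]
    cases Nat.beq (Nat.land c 1) 1
    · show pty (Nat.land M 0) = false
      rw [pty_land]
      exact xf_false fun k _ => by rw [Nat.zero_testBit, Bool.and_false]
    · exact h r List.mem_cons_self

/-- the rows of the five basis elements -/
def BR : List (List ℕ) := [[1, 0, 4, 0, 16, 0, 64, 0, 256, 0, 1024, 0, 4096, 0, 16384, 0, 65536, 0, 262144, 0,
  1048576, 0, 4194304, 0, 16777216, 0, 67108864], [0, 2, 4, 8, 0, 0, 64, 0, 0, 512, 0, 0, 0, 8192, 16384, 0, 65536,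
  131072, 262144, 0, 0, 0, 4194304, 8388608, 0, 33554432, 67108864], [522, 1041, 2080, 4113, 8202, 16388, 32896,
  65600, 131072, 5121, 8706, 16388, 8712, 5136, 2080, 65600, 32896, 256, 2621440, 4456448, 8388608, 4456448, 2621440,
  1048576, 33554432, 16777216, 0], [262212, 524416, 1048833, 2097184, 4194304, 8388616, 16777473, 33554434, 67108932,
  34816, 65536, 131584, 16384, 0, 4096, 131584, 1024, 34816, 17825793, 33554434, 67371012, 8388616, 16, 2097184,
  67371072, 524416, 17826048], [0, 4, 2, 64, 160, 272, 8, 272, 160, 262144, 526336, 1049600, 2129920, 4276224,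
  8527872, 16781312, 33693696, 67190784, 512, 1049600, 526336, 16781312, 41951232, 71319552, 2129920, 71368704,
  42074112]]

/-- the rows of the Cartan part of `[T, zT]` -/
def CM : List ℕ := [44651690, 57521883, 16547391, 95869805, 134217216, 38460050, 0, 0]

/-- the quadratic equations of `[T, gT] = 0` : `(g, root, equation)` -/
def EQl : List (ℕ × ℕ × List ℕ) := [(0, 35, [3, 24, 192, 1536, 12288, 98304, 786432, 6291456, 50331648]), (0, 45, [6,
  48, 384, 3072, 24576, 196608, 1572864, 12582912, 100663296]), (0, 76, [72, 144, 288, 36864, 73728, 147456, 18874368,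
  37748736, 75497472]), (0, 77, [9, 18, 36, 4608, 9216, 18432, 2359296, 4718592, 9437184]), (0, 98, [5, 40, 320, 2560,
  20480, 163840, 1310720, 10485760, 83886080]), (0, 104, [65, 130, 260, 33280, 66560, 133120, 17039360, 34078720,
  68157440]), (0, 112, [513, 1026, 2052, 4104, 8208, 16416, 32832, 65664, 131328]), (0, 113, [262145, 524290, 1048580,
  2097160, 4194320, 8388640, 16777280, 33554560, 67109120]), (0, 116, [262656, 525312, 1050624, 2101248, 4202496,
  8404992, 16809984, 33619968, 67239936]), (0, 123, [262656, 525312, 1050624, 2101248, 4202496, 8404992, 16809984,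
  33619968, 67239936]), (0, 126, [262145, 524290, 1048580, 2097160, 4194320, 8388640, 16777280, 33554560, 67109120]),
  (0, 127, [513, 1026, 2052, 4104, 8208, 16416, 32832, 65664, 131328]), (0, 135, [65, 130, 260, 33280, 66560, 133120,
  17039360, 34078720, 68157440]), (0, 141, [5, 40, 320, 2560, 20480, 163840, 1310720, 10485760, 83886080]), (0, 162,
  [9, 18, 36, 4608, 9216, 18432, 2359296, 4718592, 9437184]), (0, 163, [72, 144, 288, 36864, 73728, 147456, 18874368,
  37748736, 75497472]), (0, 194, [6, 48, 384, 3072, 24576, 196608, 1572864, 12582912, 100663296]), (0, 204, [3, 24,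
  192, 1536, 12288, 98304, 786432, 6291456, 50331648]), (1, 28, [32770, 4100, 65552, 8224, 131200, 16640]), (1, 29,
  [16777218, 2097156, 33554448, 4194336, 67108992, 8388864]), (1, 31, [557056, 1052672, 4259840, 8396800, 33685504,
  67125248]), (1, 32, [17301504, 3145728, 37748736, 12582912, 100663296, 75497472]), (1, 33, [33792, 6144, 73728,
  24576, 196608, 147456]), (1, 34, [16778240, 2099200, 33562624, 4210688, 67174400, 8519680]), (1, 38, [4097, 514,
  8200, 1040, 16448, 2176]), (1, 39, [2097153, 262146, 4194312, 524304, 8388672, 1048704]), (1, 41, [266240, 524800,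
  2105344, 4195328, 16793600, 33556480]), (1, 42, [2359296, 786432, 6291456, 4718592, 25165824, 34603008]), (1, 43,
  [4608, 1536, 12288, 9216, 49152, 67584]), (1, 44, [2097664, 263168, 4198400, 532480, 8421376, 1114112]), (1, 110,
  [32769, 516, 65544, 1056, 131136, 2304]), (1, 111, [16777217, 262148, 33554440, 524320, 67108928, 1048832]), (1,
  114, [294912, 1049088, 2162688, 8389632, 16908288, 67110912]), (1, 115, [17039360, 1310720, 35651584, 8912896,
  83886080, 68157440]), (1, 117, [33280, 2560, 69632, 17408, 163840, 133120]), (1, 118, [16777728, 264192, 33558528,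
  540672, 67141632, 1179648]), (1, 199, [66, 12, 144, 48, 384, 288]), (1, 202, [524352, 1048584, 4194432, 8388624,
  33554688, 67108896]), (1, 203, [1088, 2056, 8320, 16400, 65792, 131104]), (1, 209, [9, 3, 24, 18, 96, 132]), (1,
  212, [262152, 524289, 2097168, 4194306, 16777248, 33554436]), (1, 213, [520, 1025, 4112, 8194, 32800, 65540]), (1,
  235, [65, 5, 136, 34, 320, 260]), (1, 236, [262208, 1048577, 2097280, 8388610, 16777472, 67108868]), (1, 237, [576,
  2049, 4224, 16386, 33024, 131076]), (2, 47, [96, 16512, 8388864, 16777224, 33558528, 69206016]), (2, 48, [320,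
  131200, 67109120, 16777280, 33587200, 83886080]), (2, 49, [80, 8320, 4194560, 32776, 69632, 2228224]), (2, 50, [192,
  65664, 33554688, 32832, 98304, 16908288]), (2, 52, [32800, 81920, 8519680, 16777232, 33562624, 71303168]), (2, 53,
  [33024, 196608, 67239936, 16777344, 33619968, 100663296]), (2, 57, [33, 16386, 8388612, 262152, 528384, 3145728]),
  (2, 58, [257, 131074, 67108868, 262208, 557056, 17825792]), (2, 59, [17, 8194, 4194308, 520, 5120, 2099200]), (2,
  60, [129, 65538, 33554436, 576, 33792, 16779264]), (2, 62, [544, 17408, 8390656, 262160, 532480, 5242880]), (2, 63,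
  [768, 132096, 67110912, 262272, 589824, 34603008]), (2, 79, [40, 16400, 8388640, 2097160, 4198400, 10485760]), (2,
  80, [264, 131088, 67108896, 2097216, 4227072, 25165824]), (2, 81, [24, 8208, 4194336, 4104, 12288, 2113536]), (2,
  82, [136, 65552, 33554464, 4160, 40960, 16793600]), (2, 84, [4128, 24576, 8404992, 2097168, 4202496, 12582912]), (2,
  85, [4352, 139264, 67125248, 2097280, 4259840, 41943040]), (2, 216, [68, 2176, 1048832, 16777217, 33554944,
  67371008]), (2, 217, [66, 1152, 524544, 32769, 66048, 393216]), (2, 218, [32772, 67584, 1179648, 16777218, 33555456,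
  67633152]), (2, 221, [5, 2050, 1048580, 262145, 524800, 1310720]), (2, 222, [3, 1026, 524292, 513, 1536, 264192]),
  (2, 223, [516, 3072, 1050624, 262146, 525312, 1572864]), (2, 228, [12, 2064, 1048608, 2097153, 4194816, 8650752]),
  (2, 229, [10, 1040, 524320, 4097, 8704, 278528]), (2, 230, [4100, 10240, 1064960, 2097154, 4195328, 8912896]), (3,
  12, [524290, 130, 4195328, 65552, 34078720, 33554560]), (3, 13, [1048578, 132, 8389632, 65568, 67633152, 33554688]),
  (3, 19, [524304, 1152, 4202496, 73728, 37748736, 33619968]), (3, 20, [1048592, 2176, 8396800, 81920, 71303168,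
  33685504]), (3, 24, [1026, 18, 9216, 8208, 589824, 4194432]), (3, 25, [2050, 20, 17408, 8224, 655360, 4194560]), (3,
  66, [524292, 258, 4196352, 131088, 34603008, 67108992]), (3, 67, [1048580, 260, 8390656, 131104, 68157440,
  67109120]), (3, 71, [524289, 66, 4194816, 32784, 33816576, 16777344]), (3, 72, [1048577, 68, 8389120, 32800,
  67371008, 16777472]), (3, 88, [524320, 1280, 4210688, 139264, 41943040, 67174400]), (3, 89, [1048608, 2304, 8404992,
  147456, 75497472, 67239936]), (3, 93, [1028, 34, 10240, 16400, 1114112, 8388736]), (3, 94, [2052, 36, 18432, 16416,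
  1179648, 8388864]), (3, 99, [524296, 1088, 4198400, 40960, 35651584, 16842752]), (3, 100, [1048584, 2112, 8392704,
  49152, 69206016, 16908288]), (3, 105, [1025, 10, 8704, 4112, 327680, 2097280]), (3, 106, [2049, 12, 16896, 4128,
  393216, 2097408]), (3, 161, [262146, 129, 2098176, 65544, 17301504, 33554496]), (3, 183, [262160, 640, 2105344,
  69632, 20971520, 33587200]), (3, 193, [514, 17, 5120, 8200, 557056, 4194368]), (3, 224, [262148, 257, 2099200,
  131080, 17825792, 67108928]), (3, 225, [262145, 65, 2097664, 32776, 17039360, 16777280]), (3, 231, [262176, 768,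
  2113536, 135168, 25165824, 67141632]), (3, 232, [516, 33, 6144, 16392, 1081344, 8388672]), (3, 233, [262152, 576,
  2101248, 36864, 18874368, 16809984]), (3, 234, [513, 9, 4608, 4104, 294912, 2097216])]

/-- the equations by levels -/
def QB : List (List (List ℕ)) := [[], [], [], [], [], [], [], [[9, 3, 24, 18, 96, 132]], [[66, 12, 144, 48, 384, 288],
  [65, 5, 136, 34, 320, 260]], [], [], [], [], [], [[4097, 514, 8200, 1040, 16448, 2176]], [], [[4608, 1536, 12288,
  9216, 49152, 67584], [520, 1025, 4112, 8194, 32800, 65540]], [[513, 1026, 2052, 4104, 8208, 16416, 32832, 65664,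
  131328], [32770, 4100, 65552, 8224, 131200, 16640], [33792, 6144, 73728, 24576, 196608, 147456], [32769, 516, 65544,
  1056, 131136, 2304], [33280, 2560, 69632, 17408, 163840, 133120], [1088, 2056, 8320, 16400, 65792, 131104], [576,
  2049, 4224, 16386, 33024, 131076]], [], [[66, 1152, 524544, 32769, 66048, 393216], [3, 1026, 524292, 513, 1536,
  264192], [10, 1040, 524320, 4097, 8704, 278528]], [[5, 2050, 1048580, 262145, 524800, 1310720], [516, 3072, 1050624,
  262146, 525312, 1572864]], [[1025, 10, 8704, 4112, 327680, 2097280], [2049, 12, 16896, 4128, 393216, 2097408], [513,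
  9, 4608, 4104, 294912, 2097216]], [[80, 8320, 4194560, 32776, 69632, 2228224], [17, 8194, 4194308, 520, 5120,
  2099200], [24, 8208, 4194336, 4104, 12288, 2113536], [1026, 18, 9216, 8208, 589824, 4194432], [2050, 20, 17408,
  8224, 655360, 4194560], [514, 17, 5120, 8200, 557056, 4194368]], [[9, 18, 36, 4608, 9216, 18432, 2359296, 4718592,
  9437184], [2097153, 262146, 4194312, 524304, 8388672, 1048704], [2097664, 263168, 4198400, 532480, 8421376,
  1114112], [33, 16386, 8388612, 262152, 528384, 3145728], [544, 17408, 8390656, 262160, 532480, 5242880], [40, 16400,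
  8388640, 2097160, 4198400, 10485760], [4128, 24576, 8404992, 2097168, 4202496, 12582912], [12, 2064, 1048608,
  2097153, 4194816, 8650752], [4100, 10240, 1064960, 2097154, 4195328, 8912896], [1028, 34, 10240, 16400, 1114112,
  8388736], [2052, 36, 18432, 16416, 1179648, 8388864], [516, 33, 6144, 16392, 1081344, 8388672]], [[262145, 65,
  2097664, 32776, 17039360, 16777280], [262152, 576, 2101248, 36864, 18874368, 16809984]], [[3, 24, 192, 1536, 12288,
  98304, 786432, 6291456, 50331648], [266240, 524800, 2105344, 4195328, 16793600, 33556480], [2359296, 786432,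
  6291456, 4718592, 25165824, 34603008], [262152, 524289, 2097168, 4194306, 16777248, 33554436], [192, 65664,
  33554688, 32832, 98304, 16908288], [129, 65538, 33554436, 576, 33792, 16779264], [136, 65552, 33554464, 4160, 40960,
  16793600], [524290, 130, 4195328, 65552, 34078720, 33554560], [524304, 1152, 4202496, 73728, 37748736, 33619968],
  [524289, 66, 4194816, 32784, 33816576, 16777344], [524296, 1088, 4198400, 40960, 35651584, 16842752], [262146, 129,
  2098176, 65544, 17301504, 33554496], [262160, 640, 2105344, 69632, 20971520, 33587200]], [[6, 48, 384, 3072, 24576,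
  196608, 1572864, 12582912, 100663296], [72, 144, 288, 36864, 73728, 147456, 18874368, 37748736, 75497472], [5, 40,
  320, 2560, 20480, 163840, 1310720, 10485760, 83886080], [65, 130, 260, 33280, 66560, 133120, 17039360, 34078720,
  68157440], [262145, 524290, 1048580, 2097160, 4194320, 8388640, 16777280, 33554560, 67109120], [262656, 525312,
  1050624, 2101248, 4202496, 8404992, 16809984, 33619968, 67239936], [16777218, 2097156, 33554448, 4194336, 67108992,
  8388864], [557056, 1052672, 4259840, 8396800, 33685504, 67125248], [17301504, 3145728, 37748736, 12582912,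
  100663296, 75497472], [16778240, 2099200, 33562624, 4210688, 67174400, 8519680], [16777217, 262148, 33554440,
  524320, 67108928, 1048832], [294912, 1049088, 2162688, 8389632, 16908288, 67110912], [17039360, 1310720, 35651584,
  8912896, 83886080, 68157440], [16777728, 264192, 33558528, 540672, 67141632, 1179648], [524352, 1048584, 4194432,
  8388624, 33554688, 67108896], [262208, 1048577, 2097280, 8388610, 16777472, 67108868], [96, 16512, 8388864,
  16777224, 33558528, 69206016], [320, 131200, 67109120, 16777280, 33587200, 83886080], [32800, 81920, 8519680,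
  16777232, 33562624, 71303168], [33024, 196608, 67239936, 16777344, 33619968, 100663296], [257, 131074, 67108868,
  262208, 557056, 17825792], [768, 132096, 67110912, 262272, 589824, 34603008], [264, 131088, 67108896, 2097216,
  4227072, 25165824], [4352, 139264, 67125248, 2097280, 4259840, 41943040], [68, 2176, 1048832, 16777217, 33554944,
  67371008], [32772, 67584, 1179648, 16777218, 33555456, 67633152], [1048578, 132, 8389632, 65568, 67633152,
  33554688], [1048592, 2176, 8396800, 81920, 71303168, 33685504], [524292, 258, 4196352, 131088, 34603008, 67108992],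
  [1048580, 260, 8390656, 131104, 68157440, 67109120], [1048577, 68, 8389120, 32800, 67371008, 16777472], [524320,
  1280, 4210688, 139264, 41943040, 67174400], [1048608, 2304, 8404992, 147456, 75497472, 67239936], [1048584, 2112,
  8392704, 49152, 69206016, 16908288], [262148, 257, 2099200, 131080, 17825792, 67108928], [262176, 768, 2113536,
  135168, 25165824, 67141632]]]

/-- the rows by levels -/
def RL : List (List (List ℕ)) := [[[], [], [], [], [], [], [], [], [], [], [], [], [], [], [], [], [], [262143], [],
  [], [1839096], [], [], [16547391], [29680241], [44651690], [95869805]], [[1], [], [4], [], [16], [], [64], [],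
  [256], [], [1024], [], [4096], [], [16384], [], [65536], [174762], [262144], [697682], [1048576], [3710030],
  [4194304], [12903025], [16777216], [44651690], [67108864]], [[], [2], [4], [8], [], [], [64], [], [], [512], [], [],
  [], [8192], [16384], [40369], [65536], [131072], [262144], [935715], [1387157], [2708650], [4194304], [8388608],
  [23967451], [33554432], [67108864]], [[1], [2], [], [8], [16], [], [], [], [256], [512], [1024], [], [4096], [8192],
  [], [], [116964], [131072], [], [902940], [1048576], [2708650], [7190235], [8388608], [16777216], [33554432],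
  [95869805]], [[1], [2], [], [8], [16], [], [], [238], [256], [522], [1041], [2080], [4113], [8202], [16388],
  [32896], [65600], [131072], [], [861549], [1048576], [2621440], [4456448], [8388608], [16777216], [33554432],
  [95869805]], [[1], [2], [], [8], [16], [], [68], [164], [256], [523], [1041], [2084], [4113], [8218], [16388],
  [32960], [65600], [131328], [349354], [711533], [1048576], [2883584], [4456448], [9437184], [16777216], [50331648],
  [67108864]], [[1], [2], [], [8], [16], [], [68], [181], [256], [522], [1043], [2084], [4121], [8202], [16388],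
  [32960], [65600], [131072], [349354], [711533], [1048576], [2883584], [4456448], [8388608], [16777216], [33554432],
  [67108864]], [[], [], [], [], [], [], [], [], [], [523], [1043], [2080], [4121], [8218], [16388], [32896], [65600],
  [131328], [], [], [1864135], [2621440], [4456448], [9437184], [27874474], [50331648], [95869805]], [[1], [], [4],
  [], [16], [], [64], [238], [256], [], [1024], [2966], [4096], [16188], [16384], [34816], [65536], [131584],
  [262212], [524416], [1048833], [2097184], [4194304], [8388616], [16777473], [33554434], [67108932]], [[], [], [],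
  [], [], [], [], [], [], [], [], [3640], [5290], [15213], [20480], [34816], [66560], [131584], [262213], [524416],
  [1048837], [2097184], [4194320], [8388616], [16777537], [33554434], [67109188]], [[1], [], [4], [10], [16], [],
  [64], [163], [256], [682], [1024], [3446], [4096], [8192], [16384], [35328], [65536], [131584], [262212], [524418],
  [1048837], [2097192], [4194304], [8388616], [16777537], [33554434], [67108932]], [[1], [], [4], [10], [16], [],
  [64], [162], [256], [750], [1024], [2343], [4096], [8192], [20480], [35328], [66560], [131584], [262213], [524418],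
  [1048833], [2097192], [4194320], [8388616], [16777473], [33554434], [67109188]], [[1], [2], [6], [10], [], [], [78],
  [161], [273], [588], [], [3120], [5136], [], [25096], [39937], [74242], [147972], [262734], [525457], [1050913],
  [2101297], [4202506], [8405004], [16810369], [33620034], [67240004]], [[], [3], [7], [13], [26], [], [94], [187],
  [273], [523], [1047], [2082], [5136], [10792], [29192], [39937], [75266], [147972], [262735], [525457], [1050917],
  [2101297], [4202522], [8405004], [16810433], [33620034], [67240260]], [[], [], [6], [], [], [], [78], [160], [438],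
  [683], [], [3640], [], [13328], [25096], [40449], [74242], [147972], [262734], [525459], [1050917], [2101305],
  [4202506], [8405004], [16810433], [33620034], [67240004]], [[], [2], [7], [8], [17], [], [95], [171], [485], [673],
  [1875], [3182], [6176], [13328], [29192], [40449], [75266], [147972], [262735], [525459], [1050913], [2101305],
  [4202522], [8405004], [16810369], [33620034], [67240260]], [[1], [2], [4], [8], [], [], [64], [160], [272], [512],
  [], [3803], [], [8192], [16384], [56490], [65536], [131072], [262144], [526336], [1049600], [2129920], [4276224],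
  [8527872], [16781312], [33693696], [67190784]], [[1], [2], [4], [8], [], [], [64], [176], [272], [512], [1462],
  [3733], [6875], [8192], [16384], [34986], [65536], [131072], [262144], [527360], [1049600], [2134016], [4276224],
  [8544256], [16781312], [33759232], [67190784]], [[], [], [6], [], [], [], [72], [160], [272], [], [], [3640], [],
  [], [], [40106], [], [224475], [262656], [526336], [1049600], [2129920], [4284416], [8544256], [16781312],
  [33759232], [67321856]], [[1], [2], [6], [8], [], [], [72], [176], [272], [512], [1462], [3221], [6363], [8192],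
  [16384], [51370], [65536], [131072], [262656], [527360], [1049600], [2134016], [4284416], [8527872], [16781312],
  [33693696], [67321856]], [[], [], [5], [], [21], [], [81], [170], [325], [522], [1045], [2082], [4177], [8362],
  [16660], [32904], [65872], [131232], [267265], [535042], [1065988], [2138632], [4281360], [8529952], [16846912],
  [33726592], [67191040]], [[], [], [], [], [], [], [], [238], [325], [523], [1045], [2086], [4177], [8378], [16660],
  [32968], [65872], [131488], [267265], [536066], [1065988], [2142728], [4281360], [8546336], [16846912], [33792128],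
  [67191040]], [[], [2], [7], [8], [17], [], [95], [171], [485], [522], [1047], [2086], [4185], [8362], [16660],
  [32968], [65872], [131232], [267777], [535042], [1065988], [2138632], [4289552], [8546336], [16846912], [33792128],
  [67322112]], [[], [3], [7], [13], [26], [], [94], [229], [500], [523], [1047], [2082], [4185], [8378], [16660],
  [32904], [65872], [131488], [267777], [536066], [1065988], [2142728], [4289552], [8529952], [16846912], [33726592],
  [67322112]], [[], [3], [], [10], [27], [], [], [228], [502], [523], [1043], [2080], [5130], [13851], [18468],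
  [34884], [67716], [132867], [262212], [524420], [1048835], [2097248], [4194464], [8388888], [16777481], [33554706],
  [67109092]], [[], [2], [7], [8], [17], [], [95], [171], [273], [522], [1047], [2086], [5137], [11834], [22565],
  [34885], [68740], [132871], [262213], [524420], [1048839], [2097248], [4194480], [8388888], [16777545], [33554706],
  [67109348]], [[], [3], [7], [13], [26], [], [94], [229], [500], [750], [1805], [2679], [7737], [8714], [18988],
  [35396], [67718], [132871], [262212], [524422], [1048839], [2097256], [4194464], [8388888], [16777545], [33554706],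
  [67109092]], [[], [], [], [], [27], [], [], [238], [], [523], [1539], [2080], [5130], [13851], [23085], [35397],
  [68742], [132867], [262213], [524422], [1048835], [2097256], [4194480], [8388888], [16777481], [33554706],
  [67109348]], [[], [], [], [], [], [], [], [], [], [], [], [], [], [13851], [27702], [40527], [77463], [151335],
  [262734], [525461], [1050915], [2101361], [4202666], [8405276], [16810377], [33620306], [67240164]], [[], [], [5],
  [], [21], [], [81], [170], [325], [672], [1360], [2600], [5188], [8714], [31799], [40526], [76439], [151331],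
  [262735], [525461], [1050919], [2101361], [4202682], [8405276], [16810441], [33620306], [67240420]], [[1], [2], [6],
  [10], [], [], [78], [161], [273], [516], [], [3120], [5137], [], [28222], [40015], [77461], [151331], [262734],
  [525463], [1050919], [2101369], [4202666], [8405276], [16810441], [33620306], [67240164]], [[], [3], [], [10], [27],
  [], [], [228], [265], [523], [1043], [2080], [5130], [13851], [32319], [40014], [76437], [151335], [262735],
  [525463], [1050915], [2101369], [4202682], [8405276], [16810377], [33620306], [67240420]]]

/-- their combinations -/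
def CB : List (List (List ℕ)) := [[[], [], [], [], [], [], [], [], [], [], [], [], [], [], [], [], [], [7516192768],
  [], [], [3892314112], [], [], [536870912], [402653184], [134217728], [1073741824]], [[1], [], [4], [], [16], [],
  [64], [], [256], [], [1024], [], [4096], [], [16384], [], [65536], [2371092480], [262144], [1698693120], [1048576],
  [956301312], [4194304], [419430400], [16777216], [134217728], [67108864]], [[], [2], [4], [8], [], [], [64], [], [],
  [512], [], [], [], [8192], [16384], [6421741568], [65536], [131072], [262144], [2088763392], [708837376],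
  [176160768], [4194304], [8388608], [301989888], [33554432], [67108864]], [[1], [2], [], [8], [16], [], [], [],
  [256], [512], [1024], [], [4096], [8192], [], [], [865075200], [131072], [], [3682598912], [1048576], [176160768],
  [318767104], [8388608], [16777216], [33554432], [1073741824]], [[522], [1041], [], [4113], [8202], [], [],
  [152305834], [131072], [1], [2], [4], [8], [16], [32], [64], [128], [256], [], [3238526976], [8388608], [262144],
  [524288], [1048576], [33554432], [16777216], [1073741824]], [[522], [1043], [], [4121], [8202], [], [823132388],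
  [446169201], [131072], [1], [2], [4], [8], [16], [32], [64], [128], [256], [194248704], [1175715840], [8388608],
  [262144], [524288], [1048576], [33554432], [16777216], [67108864]], [[523], [1041], [], [4113], [8218], [],
  [847249636], [454557809], [131328], [1], [2], [4], [8], [16], [32], [64], [128], [256], [152305664], [1199833088],
  [9437184], [262144], [524288], [1048576], [50331648], [16777216], [67108864]], [[], [], [], [], [], [], [], [], [],
  [1], [2], [4], [8], [16], [32], [64], [128], [256], [], [], [3357278208], [262144], [524288], [1048576],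
  [150994944], [16777216], [1073741824]], [[262212], [], [1048833], [], [4194304], [], [16777473], [805312228],
  [67108932], [], [65536], [2415925540], [16384], [268437211], [4096], [512], [1024], [2048], [1], [2], [4], [8],
  [16], [32], [64], [128], [256]], [[], [], [], [], [], [], [], [], [], [], [], [2684358592], [805312228],
  [268437211], [4096], [512], [1024], [2048], [1], [2], [4], [8], [16], [32], [64], [128], [256]], [[262213], [],
  [1048833], [134299818], [4194320], [], [16777473], [1946180813], [67109188], [805312228], [66560], [268465883],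
  [20480], [8192], [4096], [512], [1024], [2048], [1], [2], [4], [8], [16], [32], [64], [128], [256]], [[262212], [],
  [1048837], [134223018], [4194304], [], [16777537], [1879133577], [67108932], [805394148], [65536], [268461787],
  [16384], [8192], [4096], [512], [1024], [2048], [1], [2], [4], [8], [16], [32], [64], [128], [256]], [[4284938],
  [268696795], [525457], [134257834], [], [], [39936], [82432], [139776], [4294971026], [], [24576], [8192], [],
  [4096], [512], [1024], [2048], [1], [2], [4], [8], [16], [32], [64], [128], [256]], [[], [1342317494], [268653787],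
  [671306901], [134266026], [], [48128], [95744], [139776], [262735], [525457], [1050917], [8192], [20480], [4096],
  [512], [1024], [2048], [1], [2], [4], [8], [16], [32], [64], [128], [256]], [[], [], [525457], [], [], [], [39936],
  [4202522], [224256], [87552], [], [28672], [], [8192], [4096], [512], [1024], [2048], [1], [2], [4], [8], [16],
  [32], [64], [128], [256]], [[], [269213770], [1075679383], [537649326], [135844126], [], [1626548], [344142],
  [778385], [82432], [173568], [56320], [16384], [8192], [4096], [512], [1024], [2048], [1], [2], [4], [8], [16],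
  [32], [64], [128], [256]], [[4769039900], [4], [2], [64], [], [], [8], [16], [32], [262144], [], [344118784], [],
  [4276224], [8527872], [167998464], [33693696], [67190784], [512], [1024], [2048], [4096], [8192], [16384], [32768],
  [65536], [131072]], [[1], [6], [2], [72], [], [], [8], [16], [32], [262656], [1413565440], [780298752], [377681408],
  [4284416], [8527872], [134304768], [33693696], [67321856], [512], [1024], [2048], [4096], [8192], [16384], [32768],
  [65536], [131072]], [[], [], [2], [], [], [], [8], [16], [32], [], [], [4429213696], [], [], [], [134304768], [],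
  [268547584], [512], [1024], [2048], [4096], [8192], [16384], [32768], [65536], [131072]], [[1], [4], [2], [64], [],
  [], [8], [16], [32], [262144], [1384262656], [750995968], [348378624], [4276224], [8544256], [167932928],
  [33759232], [67190784], [512], [1024], [2048], [4096], [8192], [16384], [32768], [65536], [131072]], [[], [],
  [2685119032], [], [536903661], [], [268548071], [267333], [535168], [1], [2], [4], [8], [16], [32], [64], [128],
  [256], [512], [1024], [2048], [4096], [8192], [16384], [32768], [65536], [131072]], [[], [], [], [], [], [], [],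
  [267845], [535168], [1], [2], [4], [8], [16], [32], [64], [128], [256], [512], [1024], [2048], [4096], [8192],
  [16384], [32768], [65536], [131072]], [[], [269065703], [1075749619], [537417037], [135871422], [], [1601460],
  [267854], [535185], [1], [2], [4], [8], [16], [32], [64], [128], [256], [512], [1024], [2048], [4096], [8192],
  [16384], [32768], [65536], [131072]], [[], [1343181315], [270386183], [673011885], [135597514], [], [1333610],
  [267343], [535185], [1], [2], [4], [8], [16], [32], [64], [128], [256], [512], [1024], [2048], [4096], [8192],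
  [16384], [32768], [65536], [131072]], [[], [3423622134], [], [152083694], [67897376], [], [], [17826315],
  [1074827302], [262212], [524420], [1048835], [34884], [18468], [4617], [513], [1026], [2052], [1], [2], [4], [8],
  [16], [32], [64], [128], [256]], [[], [269538742], [1075400265], [537938204], [134348373], [], [48735], [87723],
  [140049], [262213], [524420], [1048839], [13851], [23085], [4617], [513], [1026], [2052], [1], [2], [4], [8], [16],
  [32], [64], [128], [256]], [[], [1344269185], [268744898], [671476774], [135636286], [], [1369396], [384682],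
  [770917], [122607], [138510], [58482], [27702], [13851], [4617], [513], [1026], [2052], [1], [2], [4], [8], [16],
  [32], [64], [128], [256]], [[], [], [], [], [955786], [], [], [18088459], [], [262212], [169290], [1048839],
  [34884], [13851], [4617], [513], [1026], [2052], [1], [2], [4], [8], [16], [32], [64], [128], [256]], [[], [], [],
  [], [], [], [], [], [], [], [], [], [], [13851], [4617], [513], [1026], [2052], [1], [2], [4], [8], [16], [32],
  [64], [128], [256]], [[], [], [2685050885], [], [536870975], [], [268435675], [344303], [696773], [82593], [173394],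
  [23085], [40014], [13851], [4617], [513], [1026], [2052], [1], [2], [4], [8], [16], [32], [64], [128], [256]],
  [[4284939], [268998658], [525463], [134217898], [], [], [40014], [82593], [140049], [4294971029], [], [27702],
  [13851], [], [4617], [513], [1026], [2052], [1], [2], [4], [8], [16], [32], [64], [128], [256]], [[], [3423354919],
  [], [134217898], [67911711], [], [], [17831653], [1073742189], [262735], [525463], [1050915], [40014], [18468],
  [4617], [513], [1026], [2052], [1], [2], [4], [8], [16], [32], [64], [128], [256]]]

/-- the solutions -/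
def SOL : List (List ℕ) := [[], [0, 8714, 166400, 10485800, 10652200, 34078850, 34245250, 42082304, 44564650,
  44731050], [0, 432, 5137, 1575936, 1576368, 17826049, 18911232, 18911664, 20487168, 20487600], [0, 18468, 98496,
  116964, 7077888, 7096356, 7176384, 7194852, 67371076, 71385088], [0, 18468, 98496, 116964, 7077888, 7096356,
  7176384, 7194852], [0], [0], [0, 13851, 18468, 32319, 98496, 112347, 116964, 130815, 7077888, 7091739, 7096356,
  7110207, 7176384, 7190235, 7194852, 7208703, 62557099, 62569904], [0, 166400, 10485800, 10652200, 34078850,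
  34245250, 44564650, 44731050], [0, 166400, 7199989, 10485800, 10652200, 34078850, 34245250, 44564650, 44731050,
  85197125, 85363525, 91872688, 95682925, 95849325, 119275975, 119442375, 129761775, 129928175], [0], [0], [0,
  1576368, 18911664, 20487168, 113467392, 115043760, 132379056, 133954560], [0], [0, 1576368, 18911664, 20487168,
  113467824, 115043328, 132378624, 133954992], [0], [0, 432, 1575936, 1576368, 18911232, 18911664, 20487168,
  20487600], [0], [0, 432, 1575936, 1576368, 7203566, 18911232, 18911664, 20487168, 20487600, 112102126, 113467392,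
  113467824, 115043328, 115043760, 132378624, 132379056, 133954560, 133954992], [0], [0, 10652200, 34245250, 44564650,
  85197125, 95849325, 119442375, 129761775], [0, 10652200, 34245250, 44564650, 85363525, 95682925, 119275975,
  129928175], [0], [0], [0, 13851, 116964, 130815, 7096356, 7110207, 7176384, 7190235], [0], [0], [0, 32319, 112347,
  116964, 7091739, 7096356, 7176384, 7208703], [0, 32319, 112347, 116964, 1576368, 7091739, 7096356, 7176384, 7208703,
  10652200, 18911664, 20487168, 34245250, 44564650, 85363525, 95682925, 113467824, 115043328, 119275975, 129928175,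
  132378624, 133954992], [0, 10652200, 34245250, 44564650, 85197125, 95849325, 119442375, 129761775], [0, 1576368,
  18911664, 20487168, 113467392, 115043760, 132379056, 133954560], [0, 13851, 116964, 130815, 7096356, 7110207,
  7176384, 7190235]]

/-- the equations of the square of the tensor: `(root, equation)` -/
def SQl : List (ℕ × List ℕ) := [(68, [67108866, 33554436, 1048704, 524544]), (69, [131074, 65540, 2176, 1280]), (70,
  [67109888, 33556480, 1114112, 655360]), (73, [33554433, 16777218, 524352, 262272]), (74, [65537, 32770, 1088, 640]),
  (75, [33554944, 16778240, 557056, 327680]), (90, [67108880, 33554464, 8388736, 4194560]), (91, [131088, 65568,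
  16512, 8448]), (92, [67117056, 33570816, 8454144, 4325376]), (95, [8388610, 4194308, 1048592, 524320]), (96, [16386,
  8196, 2064, 1056]), (97, [8389632, 4196352, 1056768, 540672]), (101, [33554440, 16777232, 4194368, 2097280]), (102,
  [65544, 32784, 8256, 4224]), (103, [33558528, 16785408, 4227072, 2162688]), (107, [4194305, 2097154, 524296,
  262160]), (108, [8193, 4098, 1032, 528]), (109, [4194816, 2098176, 528384, 270336]), (152, [67108865, 16777220,
  1048640, 262400]), (153, [131073, 32772, 2112, 768]), (156, [67109376, 16779264, 1081344, 393216]), (174, [67108872,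
  16777248, 8388672, 2097408]), (175, [131080, 32800, 16448, 4352]), (178, [67112960, 16793600, 8421376, 2228224]),
  (184, [8388609, 2097156, 1048584, 262176]), (185, [16385, 4100, 2056, 544]), (188, [8389120, 2099200, 1052672,
  278528])]

/-- the row `u` for the element `dm` -/
def rowd (dm u : ℕ) : ℕ := (List.range 5).foldr (fun n v => Nat.xor (cond (dm.testBit n) ((BR.getD n []).getD u 0) 0) v) 0

/-- all rows for the element `dm` -/
def raw (dm : ℕ) : List ℕ := ((List.range 27).map fun u => rowd dm u) ++ CM

/-- the levels for the element `dm` -/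
def LV (dm : ℕ) : List Lev := List.zip (RL.getD dm []) QB

theorem pty_rowd {M : ℕ} (hM : M < 2 ^ 27) (dm u : ℕ) : pty (Nat.land M (rowd dm u)) =
    xf (List.range 5) fun n => dm.testBit n && xf (List.range 27) fun t => M.testBit t && ((BR.getD n []).getD u 0).testBit t := by
  unfold rowd
  induction List.range 5 with
  | nil =>
    show pty (Nat.land M 0) = false
    rw [pty_land]
    exact xf_false fun k _ => by rw [Nat.zero_testBit, Bool.and_false]
  | cons n l ih =>
    rw [xf_cons, List.foldr_cons]
    show pty (Nat.land M (_ ^^^ _)) = _
    rw [pty_land_xor, ih]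
    congr 1
    cases dm.testBit n
    · show pty (Nat.land M 0) = false
      rw [pty_land]
      exact xf_false fun k _ => by rw [Nat.zero_testBit, Bool.and_false]
    · rw [Bool.true_and]
      exact pty_land_27 hM _

/-- the rows of the levels are combinations of the rows -/
def chkR (dm : ℕ) : Bool :=
  (List.zip (RL.getD dm []) (CB.getD dm [])).all fun a => (List.zip a.1 a.2).all fun b => Nat.beq (comb (raw dm) b.2) b.1

/-- the shape of the lists -/
def chkL (dm : ℕ) : Bool := Nat.beq (LV dm).length 27 && bnd (LV dm) 1 &&
  Nat.beq (RL.getD dm []).length (CB.getD dm []).length &&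
  (List.zip (RL.getD dm []) (CB.getD dm [])).all fun a => Nat.beq a.1.length a.2.length

theorem chkR_all : ((List.range 32).all chkR) = true := by decide +kernel

theorem chkL_all : ((List.range 32).all chkL) = true := by decide +kernel

theorem QB_sub : (QB.all fun l => l.all fun e => EQl.any fun a => decide (a.2.2 = e)) = true := by decide +kernel

theorem run_0 : (([1, 2, 3, 4, 5, 6, 7, 8] : List ℕ).all fun dm => dfs (SOL.getD dm []) (LV dm) 1 0) = true := by decide +kernel

theorem run_1 : (([9, 10, 11, 12, 13, 14, 15] : List ℕ).all fun dm => dfs (SOL.getD dm []) (LV dm) 1 0) = true := by decide +kernel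

theorem run_2 : (([16, 17, 18, 19, 20, 21, 22, 23, 24, 25, 26, 27] : List ℕ).all fun dm => dfs (SOL.getD dm []) (LV dm) 1 0) = true := by decide +kernel

theorem run_3 : (([28] : List ℕ).all fun dm => dfs (SOL.getD dm []) (LV dm) 1 0) = true := by decide +kernel

theorem run_4 : (([29, 30, 31] : List ℕ).all fun dm => dfs (SOL.getD dm []) (LV dm) 1 0) = true := by decide +kernel

theorem run_all {dm : ℕ} (h0 : dm ≠ 0) (h : dm < 32) : dfs (SOL.getD dm []) (LV dm) 1 0 = true := by
  have h1 : dm ∈ ([1, 2, 3, 4, 5, 6, 7, 8] : List ℕ) ∨ dm ∈ ([9, 10, 11, 12, 13, 14, 15] : List ℕ) ∨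
      dm ∈ ([16, 17, 18, 19, 20, 21, 22, 23, 24, 25, 26, 27] : List ℕ) ∨ dm ∈ ([28] : List ℕ) ∨
      dm ∈ ([29, 30, 31] : List ℕ) := by
    simp only [List.mem_cons, List.not_mem_nil, or_false]
    omega
  rcases h1 with h1 | h1 | h1 | h1 | h1
  · exact List.all_eq_true.1 run_0 dm h1
  · exact List.all_eq_true.1 run_1 dm h1
  · exact List.all_eq_true.1 run_2 dm h1
  · exact List.all_eq_true.1 run_3 dm h1
  · exact List.all_eq_true.1 run_4 dm h1

/-- **the result of the search** -/
theorem search {dm M : ℕ} (h0 : dm ≠ 0) (h : dm < 32) (hM : M < 2 ^ 27)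
    (hr : ∀ r ∈ raw dm, pty (Nat.land M r) = false) (hq : ∀ a ∈ EQl, eq1 M a.2.2 = false) : M ∈ SOL.getD dm [] := by
  have hL := List.all_eq_true.1 chkL_all dm (List.mem_range.2 h)
  have hR := List.all_eq_true.1 chkR_all dm (List.mem_range.2 h)
  unfold chkL at hL
  unfold chkR at hR
  obtain ⟨hL1, hl4⟩ := Bool.and_eq_true_iff.1 hL
  obtain ⟨hL2, hl3⟩ := Bool.and_eq_true_iff.1 hL1
  obtain ⟨hl1, hl2⟩ := Bool.and_eq_true_iff.1 hL2
  have hl1' := Nat.eq_of_beq_eq_true hl1
  have hl3' := Nat.eq_of_beq_eq_true hl3
  have key := dfs_sound (M := M) (LV dm) 0 0 (run_all h0 h) (Nat.mod_one M) hl2 (by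
    intro a ha
    unfold LV at ha
    have ha1 : a.1 ∈ RL.getD dm [] := (List.of_mem_zip ha).1
    have ha2 : a.2 ∈ QB := (List.of_mem_zip ha).2
    constructor
    · intro r hr1
      obtain ⟨i, hi, hi'⟩ := List.mem_iff_getElem.1 ha1
      have hi2 : i < (CB.getD dm []).length := by omega
      have h5 : ((RL.getD dm [])[i], (CB.getD dm [])[i]) ∈ List.zip (RL.getD dm []) (CB.getD dm []) := by
        refine List.mem_iff_getElem.2 ⟨i, by rw [List.length_zip]; omega, ?_⟩
        rw [List.getElem_zip]
      have h6 := List.all_eq_true.1 hR _ h5
      have h7 := Nat.eq_of_beq_eq_true (List.all_eq_true.1 hl4 _ h5)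
      rw [← hi'] at hr1
      obtain ⟨j, hj, hj'⟩ := List.mem_iff_getElem.1 hr1
      have h8 : (((RL.getD dm [])[i])[j], ((CB.getD dm [])[i])[j]'(by simpa only [← h7] using hj)) ∈
          List.zip ((RL.getD dm [])[i]) ((CB.getD dm [])[i]) := by
        refine List.mem_iff_getElem.2 ⟨j, by rw [List.length_zip]; simp only at h7; omega, ?_⟩
        rw [List.getElem_zip]
      have h9 := Nat.eq_of_beq_eq_true (List.all_eq_true.1 h6 _ h8)
      simp only at h9
      rw [← hj', ← h9]
      exact pty_comb _ _ hr
    · intro e he
      obtain ⟨b, hb, hb'⟩ := List.any_eq_true.1 (List.all_eq_true.1 (List.all_eq_true.1 QB_sub _ ha2) e he)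
      rw [← of_decide_eq_true hb']
      exact hq b hb)
  rwa [hl1', Nat.zero_add, Nat.mod_eq_of_lt hM] at key

/-- the solutions have square zero -/
theorem SOL_sq : (SOL.all fun l => l.all fun m => SQl.all fun a => !eq1 m a.2) = true := by decide +kernel

end Cfsg.Agent.H865.L34
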